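import Mathlib
import Cfsg.Agent.Lib.SplitBN.BorelTits

/-!
The centraliser of `U_J` lies in `U Z(G)`; radical `p`-subgroups are conjugate to the `U_J`.
-/

set_option autoImplicit false

namespace H64.SBN

open H38

variable {ι l : Type} [Fintype l] [DecidableEq l] {R : RS ι l}

theorem rad_of_rt {J : Set l} {j : l} (hj : j ∈ J) {r k : ι} (hr : R.Pos r ∧ ¬ R.InSub J r) {c : ℤ}
    (h : R.rt k = R.rt r + c • R.rt (R.sim j)) : R.Pos k ∧ ¬ R.InSub J k := by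
  obtain ⟨h1, h2⟩ := hr
  simp only [RS.InSub, not_forall] at h2
  obtain ⟨i, hi, h0⟩ := h2
  have hij : i ≠ j := fun e => hi (e ▸ hj)
  have e : R.rt k i = R.rt r i := by simp [h, R.rt_sim, hij]
  have : 0 ≤ R.rt r i := h1 i
  exact ⟨R.pos_of_coord_pos (j := i) (by omega), fun h' => h0 (e ▸ h' i hi)⟩

theorem exists_rad_wt_ne (hc : R.Connected) {J : Set l} (hJ : J ≠ Set.univ) (j : l) :
    ∃ r, (R.Pos r ∧ ¬ R.InSub J r) ∧ R.wt r j ≠ 0 := by
  by_contra hn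
  let S : Set l := {j | ∀ r, (R.Pos r ∧ ¬ R.InSub J r) → R.wt r j = 0}
  have hj : j ∈ S := fun r hr => by
    by_contra h; exact hn ⟨r, hr, h⟩
  have hS : ∀ i ∉ J, i ∉ S := fun i hi h => by
    have := h _ ⟨R.pos_sim i, fun h' => hi (R.inSub_sim.1 h')⟩
    rw [R.wt_sim, R.A_self] at this
    omega
  obtain ⟨i0, hi0⟩ := (Set.ne_univ_iff_exists_notMem J).1 hJ
  obtain ⟨a, ha, b, hb, hab⟩ := hc S ⟨j, hj⟩ ⟨i0, hS i0 hi0⟩
  by_cases hbJ : b ∈ J
  · simp only [S, Set.mem_setOf_eq, not_forall] at hb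
    obtain ⟨r, hr, h0⟩ := hb
    have h1 := ha (R.σ b r) (rad_of_rt hbJ hr (c := -R.wt r b) (by rw [R.rt_σ]; module))
    rw [RS.wt, R.rt_σ, R.wtv_sub, R.wtv_smul, ← RS.wt, ← RS.wt, ha r hr, R.wt_sim] at h1
    exact mul_ne_zero h0 hab (by linarith)
  · exact hab (R.wt_sim a b ▸ ha _ ⟨R.pos_sim b, fun h' => hbJ (R.inSub_sim.1 h')⟩)

theorem exists_rad_add (hc : R.Connected) {J : Set l} (hJ : J ≠ Set.univ) {j : l} (hj : j ∈ J) :
    ∃ r k, (R.Pos r ∧ ¬ R.InSub J r) ∧ (R.Pos k ∧ ¬ R.InSub J k) ∧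
      R.rt k = R.rt r + R.rt (R.sim j) := by
  obtain ⟨r, hr, h0⟩ := exists_rad_wt_ne hc hJ j
  have hs : R.InSub J (R.sim j) := R.inSub_sim.2 hj
  have h1 := R.pair_mul_pair_lt (r := R.sim j) (s := r) (fun e => hr.2 (e ▸ hs))
    (fun e => hr.2 (e ▸ R.inSub_neg.2 hs))
  have h2 := R.len_mul_pair (R.sim j) r
  have h3 := R.len_pos r
  have h4 := R.len_pos (R.sim j)
  rw [← R.pair_sim_left] at h0
  have h0' : R.pair r (R.sim j) ≠ 0 := fun h => h0 (R.pair_eq_zero_comm.1 h)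
  have e1 := R.rt_refl (R.sim j) r
  have e2 := R.rt_refl r (R.sim j)
  have e3 := R.rt_neg (R.refl r (R.sim j))
  set a := R.pair (R.sim j) r
  set b := R.pair r (R.sim j)
  have : a = 1 ∨ a = -1 ∨ b = 1 ∨ b = -1 := by
    by_contra hn
    push Not at hn
    rcases lt_or_gt_of_ne h0 with ha | ha <;> rcases lt_or_gt_of_ne h0' with hb | hb
    · have : a ≤ -2 := by omega
      have : b ≤ -2 := by omega
      nlinarith
    · nlinarith
    · nlinarith
    · have : 2 ≤ a := by omega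
      have : 2 ≤ b := by omega
      nlinarith
  rcases this with h | h | h | h
  · exact ⟨_, r, rad_of_rt hj hr (c := -1) (by rw [e1, h]; module), hr, by rw [e1, h]; module⟩
  · exact ⟨r, _, hr, rad_of_rt hj hr (c := 1) (by rw [e1, h]; module), by rw [e1, h]; module⟩
  · exact ⟨_, r, rad_of_rt hj hr (c := -1) (by rw [e3, e2, h]; module), hr,
      by rw [e3, e2, h]; module⟩
  · exact ⟨r, _, hr, rad_of_rt hj hr (c := 1) (by rw [e2, h]; module), by rw [e2, h]; module⟩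

variable {K : Type*} [Field K] {G : Type*} [Group G] {E : Elts R K G}

theorem closed_ht_gt (m : ℤ) : R.Closed {k | R.Pos k ∧ m < R.ht k} := fun _ hr _ hs _ hk =>
  ⟨R.pos_of_cone hr.1 hs.1 hk, hr.2.trans (R.ht_lt_of_cone hr.1 hs.1 hk).1⟩

theorem U_conj_mem_of_up {S : Set ι} (hS : ∀ s ∈ S, R.Pos s)
    (h : ∀ s ∈ S, ∀ k, R.Pos k → R.ht s < R.ht k → k ∈ S) {g a : G} (hg : g ∈ E.U)
    (ha : a ∈ E.XS S) : g * a * g⁻¹ ∈ E.XS S :=
  E.XS_conj_mem (fun r hr s hs => ⟨fun e => (R.pos_neg_iff r).1 (e ▸ hS s hs) hr, fun k hk =>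
    h s hs k (R.pos_of_cone hr (hS s hs) hk) (R.ht_lt_of_cone hr (hS s hs) hk).2⟩) hg ha

theorem comm_mem_ht_gt {r : ι} (hr : R.Pos r) (t : K) {u : G} (hu : u ∈ E.U) :
    E.x r t * u * (E.x r t)⁻¹ * u⁻¹ ∈ E.XS {k | R.Pos k ∧ R.ht r < R.ht k} := by
  refine E.XS_induction (P := fun u => E.x r t * u * (E.x r t)⁻¹ * u⁻¹ ∈
    E.XS {k | R.Pos k ∧ R.ht r < R.ht k}) hu (fun s hs c => ?_) (by simp) fun a b ha _ h1 h2 => ?_
  · exact E.XS_mono (T := {k | R.Pos k ∧ R.ht r < R.ht k})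
      (fun k hk => ⟨R.pos_of_cone hr hs hk, (R.ht_lt_of_cone hr hs hk).1⟩)
      (E.comm_of_ne_neg (fun e => (R.pos_neg_iff r).1 (e ▸ hs) hr) t c)
  · have : E.x r t * (a * b) * (E.x r t)⁻¹ * (a * b)⁻¹ =
        (E.x r t * a * (E.x r t)⁻¹ * a⁻¹) * (a * (E.x r t * b * (E.x r t)⁻¹ * b⁻¹) * a⁻¹) := by group
    rw [this]
    exact Subgroup.mul_mem _ h1 (U_conj_mem_of_up (S := {k | R.Pos k ∧ R.ht r < R.ht k})
      (fun _ h => h.1) (fun s hs k hk h => ⟨hk, hs.2.trans h⟩) ha h2)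

variable [Finite ι] (hF : E.Faith)
include hF

theorem eq_or_ht_lt {J : Set l} {b n b' : G} {w : Equiv.Perm ι} (hb : b ∈ E.B) (hb' : b' ∈ E.B)
    (hn : E.Rep n w) (hg : ∀ u ∈ E.UJ J, b * n * b' * u = u * (b * n * b')) {r : ι}
    (hr : R.Pos r ∧ ¬ R.InSub J r) : w r = r ∨ R.ht r < R.ht (w r) := by
  set S : Set ι := {k | R.Pos k ∧ (k = r ∨ R.ht r < R.ht k)}
  have hup : ∀ s ∈ S, ∀ k, R.Pos k → R.ht s < R.ht k → k ∈ S := fun s hs k hk h =>
    ⟨hk, Or.inr (by rcases hs.2 with e | e; exacts [e ▸ h, e.trans h])⟩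
  have hB : ∀ g ∈ E.B, ∀ a ∈ E.XS S, g * a * g⁻¹ ∈ E.XS S := by
    intro g hg a ha
    obtain ⟨u, hu, h, hh, rfl⟩ := E.mem_B.1 hg
    have := U_conj_mem_of_up (fun _ h => h.1) hup hu (E.H_conj_mem_XS hh ha)
    simpa [mul_assoc] using this
  have hx : E.x r 1 ∈ E.XS S := E.x_mem_XS (S := S) ⟨hr.1, Or.inl rfl⟩ 1
  have h1 := hg _ (E.P_conj_mem_UJ (E.B_le_P J (E.B.inv_mem hb')) (E.x_mem_XS hr 1))
  have h2 := hB _ (E.B.inv_mem hb) _ (hB _ (E.B.inv_mem hb') _ hx)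
  have h3 : b⁻¹ * (b'⁻¹ * E.x r 1 * b'⁻¹⁻¹) * b⁻¹⁻¹ = n * E.x r 1 * n⁻¹ := by
    calc _ = b⁻¹ * ((b'⁻¹ * E.x r 1 * b'⁻¹⁻¹) * (b * n * b')) * b'⁻¹ * n⁻¹ := by group
      _ = _ := by rw [← h1]; group
  obtain ⟨c, hc, h4⟩ := hn.conj_x r
  rw [h3, h4] at h2
  have hcl : R.Closed S := fun a ha b hb k hk =>
    hup a ha k (R.pos_of_cone ha.1 hb.1 hk) (R.ht_lt_of_cone ha.1 hb.1 hk).1
  exact (hF.mem_of_x_mem_XS hcl (fun _ h => h.1) (by simpa using hc) h2).2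

theorem mem_B_of_comm_UJ (htop : E.Gp = ⊤) (hc : R.Connected) {J : Set l} (hJ : J ≠ Set.univ)
    {g : G} (hg : ∀ u ∈ E.UJ J, g * u = u * g) : g ∈ E.B := by
  have h1 : g ∈ E.P J := by
    rw [← hF.normalizer_UJ, htop, inf_top_eq, Subgroup.mem_normalizer_iff]
    refine fun u => ⟨fun hu => by rw [hg u hu]; simpa using hu, fun hu => ?_⟩
    have := hg _ hu
    have e : u = g * u * g⁻¹ := by
      apply mul_left_cancel (a := g)
      rw [this]; group
    rw [e]; exact hu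
  obtain ⟨b, hb, n, w, hn, hw, u, hu, rfl⟩ := E.bruhat_P h1
  have hu' : u ∈ E.B := E.U_le_B (E.XS_mono (fun _ h => h.1) hu)
  have hfix : ∀ r, (R.Pos r ∧ ¬ R.InSub J r) → w r = r := by
    intro r hr
    have hr' : R.Pos (w r) ∧ ¬ R.InSub J (w r) :=
      ⟨R.pos_WJ_of_not_inSub hw hr.1 hr.2, fun h => hr.2 ((R.inSub_WJ hw).1 h)⟩
    have a1 := eq_or_ht_lt hF hb hu' hn hg hr
    have a2 := eq_or_ht_lt hF (E.B.inv_mem hu') (E.B.inv_mem hb) hn.inv (fun v hv => by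
      have := hg v hv
      calc u⁻¹ * n⁻¹ * b⁻¹ * v = (b * n * u)⁻¹ * (v * (b * n * u)) * (b * n * u)⁻¹ := by group
        _ = _ := by rw [← this]; group) hr'
    simp only [Equiv.Perm.coe_inv, Equiv.symm_apply_apply] at a2
    rcases a1 with a1 | a1
    · exact a1
    · rcases a2 with a2 | a2
      · exact a2.symm
      · omega
  have hw1 : w = 1 := by
    refine R.eq_one_of_pos hw fun j hj => ?_
    obtain ⟨r, k, hr, hk, e⟩ := exists_rad_add hc hJ hj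
    have := R.rt_W_comb hn.mem_W (a := r) (b := R.sim j) (k := k) (i := 1) (j := 1) (by simpa using e)
    rw [hfix r hr, hfix k hk, e, one_smul, one_smul, add_right_inj] at this
    rw [← R.rt_inj this]; exact R.pos_sim j
  subst hw1
  exact E.B.mul_mem (E.B.mul_mem hb (E.H_le_B (Elts.Rep.mem_H E hn))) hu'

/-- The centraliser of `U_J` (`J` proper, connected diagram) lies in `U Z(G)`. -/
theorem exists_center_of_comm_UJ (htop : E.Gp = ⊤) (h3 : E.R3) (hc : R.Connected) {J : Set l}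
    (hJ : J ≠ Set.univ) {g : G} (hg : ∀ u ∈ E.UJ J, g * u = u * g) :
    ∃ u ∈ E.U, ∃ z ∈ Subgroup.center G, g = u * z := by
  obtain ⟨u, hu, h, hh, rfl⟩ := E.mem_B.1 (mem_B_of_comm_UJ hF htop hc hJ hg)
  refine ⟨u, hu, h, ?_, rfl⟩
  rw [← Elts.tor_range h3] at hh
  obtain ⟨c, rfl⟩ := hh
  let χ : (l → ℤ) → Kˣ := fun v => ∏ i, c i ^ R.wtv v i
  have χ_add : ∀ v v', χ (v + v') = χ v * χ v' := fun v v' => by
    simp only [χ, R.wtv_add, zpow_add, Finset.prod_mul_distrib]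
  have h1 : ∀ r, (R.Pos r ∧ ¬ R.InSub J r) → χ (R.rt r) = 1 := by
    intro r hr
    have e1 := Elts.tor_conj_x h3 c r 1
    rw [mul_one] at e1
    change _ = E.x r (χ (R.rt r)) at e1
    have e2 := hg _ (E.x_mem_XS hr 1)
    have e3 := comm_mem_ht_gt (E := E) hr.1 (χ (R.rt r)) hu
    have e4 : E.x r (χ (R.rt r)) * u * (E.x r (χ (R.rt r)))⁻¹ * u⁻¹ = E.x r (χ (R.rt r) - 1) := by
      rw [sub_eq_add_neg, ← E.x_add, E.x_neg, mul_assoc, mul_assoc, ← e1]
      congr 1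
      calc _ = (u * Elts.tor h3 c * E.x r 1 * (u * Elts.tor h3 c)⁻¹)⁻¹ := by group
        _ = _ := by rw [e2]; group
    rw [e4] at e3
    by_contra hne
    have := hF.mem_of_x_mem_XS (closed_ht_gt _) (fun _ h => h.1)
      (sub_ne_zero.2 fun h => hne (Units.ext h)) e3
    exact lt_irrefl _ this.2
  have h2 : ∀ j, χ (R.rt (R.sim j)) = 1 := by
    intro j
    by_cases hj : j ∈ J
    · obtain ⟨r, k, hr, hk, e⟩ := exists_rad_add hc hJ hj
      have := h1 k hk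
      rwa [e, χ_add, h1 r hr, one_mul] at this
    · exact h1 _ ⟨R.pos_sim j, fun h => hj (R.inSub_sim.1 h)⟩
  have h4 : ∀ v, χ v = 1 := by
    intro v
    have : χ v = ∏ j, χ (R.rt (R.sim j)) ^ v j := by
      simp only [χ, ← Finset.prod_zpow, ← zpow_mul]
      rw [Finset.prod_comm]
      refine Finset.prod_congr rfl fun i _ => ?_
      simp only [← RS.wt.eq_1, R.wt_sim]
      rw [RS.wtv]
      induction (Finset.univ : Finset l) using Finset.induction_on with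
      | empty => simp
      | insert a s ha ih => rw [Finset.sum_insert ha, Finset.prod_insert ha, zpow_add, ih, mul_comm (v a)]
    rw [this]; simp [h2]
  rw [Subgroup.mem_center_iff]
  intro g
  have hg : g ∈ E.Gp := htop ▸ Subgroup.mem_top g
  refine E.XS_induction (P := fun g => g * Elts.tor h3 c = Elts.tor h3 c * g) hg (fun r _ t => ?_)
    (by simp) fun a b _ _ h1 h2 => by rw [mul_assoc, h2, ← mul_assoc, h1, mul_assoc]
  have e1 := Elts.tor_conj_x h3 c r t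
  change _ = E.x r (χ (R.rt r) * t) at e1
  rw [h4, Units.val_one, one_mul, mul_inv_eq_iff_eq_mul] at e1
  exact e1.symm

variable [Finite K] [Finite G] (p : ℕ) [Fact p.Prime] [CharP K p]

/-- A `p'`-element centralising `U_J` is central. -/
theorem mem_center_of_comm_UJ (htop : E.Gp = ⊤) (h3 : E.R3) (hc : R.Connected) {J : Set l}
    (hJ : J ≠ Set.univ) {g : G} (hg : ∀ u ∈ E.UJ J, g * u = u * g) (hp : ¬ p ∣ orderOf g) :
    g ∈ Subgroup.center G := by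
  obtain ⟨u, hu, z, hz, rfl⟩ := exists_center_of_comm_UJ hF htop h3 hc hJ hg
  have hz' : ¬ p ∣ orderOf z := fun h => not_dvd_card_H p h3
    (h.trans (Subgroup.orderOf_dvd_natCard _ (hF.center_le_H htop hz)))
  obtain ⟨k, hk⟩ := IsPGroup.iff_orderOf.1 (isPGroup_U p hF) ⟨u, hu⟩
  rw [Subgroup.orderOf_mk] at hk
  have hcm : Commute (u * z) z⁻¹ := Subgroup.mem_center_iff.1 (Subgroup.inv_mem _ hz) _
  have h1 := hcm.orderOf_mul_dvd_mul_orderOf
  rw [mul_inv_cancel_right, hk, orderOf_inv] at h1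
  have hpp : p.Prime := Fact.out
  rcases k with _ | k
  · rw [pow_zero, orderOf_eq_one_iff] at hk
    rw [hk, one_mul]; exact hz
  · rcases (hpp.dvd_mul).1 ((dvd_pow_self p k.succ_ne_zero).trans h1) with h | h
    · exact absurd h hp
    · exact absurd h hz'

/-- A radical `p`-subgroup is conjugate to some `U_J`. -/
theorem exists_conj_eq_UJ (htop : E.Gp = ⊤) (h3 : E.R3) {X : Subgroup G} (hX : IsPGroup p X)
    (hrad : ∀ Y : Subgroup G, IsPGroup p Y → Y ≤ Subgroup.normalizer (X : Set G) →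
      (∀ m ∈ Subgroup.normalizer (X : Set G), ∀ y ∈ Y, m * y * m⁻¹ ∈ Y) → Y ≤ X) :
    ∃ g : G, ∃ J : Set l, X.map (MulAut.conj g).toMonoidHom = E.UJ J := by
  obtain ⟨g, J, h1, h2⟩ := borel_tits' p hF htop h3 hX
  refine ⟨g, J, ?_⟩
  set Q := (E.UJ J).map (MulAut.conj g⁻¹).toMonoidHom with hQ
  have mem_Q : ∀ x, x ∈ Q ↔ g * x * g⁻¹ ∈ E.UJ J := fun x => by
    constructor
    · rintro ⟨y, hy, rfl⟩; simpa [mul_assoc] using hy
    · intro h; exact ⟨_, h, by simp [mul_assoc]⟩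
  have hQp : IsPGroup p Q := (isPGroup_UJ p hF J).map _
  have hXQ : X ≤ Q := fun x hx => (mem_Q x).2 (h2 x hx)
  have h4 : Q ⊓ Subgroup.normalizer (X : Set G) ≤ X := by
    refine hrad _ (hQp.to_inf_left) inf_le_right fun m hm y hy => ⟨(mem_Q _).2 ?_, ?_⟩
    · have := E.P_conj_mem_UJ (h1 m hm) ((mem_Q y).1 hy.1)
      simpa [mul_assoc] using this
    · exact Subgroup.mul_mem _ (Subgroup.mul_mem _ hm hy.2) (Subgroup.inv_mem _ hm)
  have h5 : X = Q := by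
    haveI := hQp.isNilpotent
    have := normalizerCondition_of_isNilpotent (G := Q)
    rw [normalizerCondition_iff_only_full_group_self_normalizing] at this
    have h6 := this (X.subgroupOf Q) (by
      refine le_antisymm (fun y hy => ?_) Subgroup.le_normalizer
      refine h4 ⟨y.2, ?_⟩
      rw [← Subgroup.subgroupOf_normalizer_eq hXQ] at hy
      exact hy)
    exact le_antisymm hXQ (Subgroup.subgroupOf_eq_top.1 h6)
  rw [h5, hQ, Subgroup.map_map]
  have : (MulAut.conj g).toMonoidHom.comp (MulAut.conj g⁻¹).toMonoidHom = MonoidHom.id G := by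
    ext x; simp [mul_assoc]
  rw [this, Subgroup.map_id]

end H64.SBN
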